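import Cfsg.Agent.H566.HT.TDFrame
import Cfsg.Agent.H234.HT.ExcDefs
import Cfsg.Agent.H378.TorFin
import Mathlib.RingTheory.RootsOfUnity.AlgebraicallyClosed
import Cfsg.Agent.S1067

/-!
# S4933, part (O), `³D₄(q)`: the element (helper566)
-/

set_option autoImplicit false
set_option linter.unusedSectionVars false

namespace Cfsg.Agent.H566.HT

open CoxeterSystem Cfsg Cfsg.Lie Cfsg.Lie.ChevalleyDatum
open Cfsg.Agent.ChevalleyStructure Cfsg.Agent.ChevalleyStructure.CoxeterGeom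
  Cfsg.Agent.ChevalleyStructure.CoxeterGeomTypes
open Cfsg.Agent.Tits.Roots Cfsg.Agent.Tits.Core Cfsg.Agent.Nodes Cfsg.Agent.Nodes.Reps Cfsg.Agent.Nodes.BNOf
  Cfsg.Agent.Nodes.RGDChev
open Cfsg.Agent.H129.TriD4 Cfsg.Agent.H234.HT
open Polynomial

universe v

section Theta

variable {W : Type v} [Group W] (cs : CoxeterSystem coxeterD4 W)

theorem ri (i : Fin 4) (x : Fin 4 → ℤ) : rep cs RGDTwD4.hp.isCartan (cs.simple i) x =
    ((H378.OmD4.refl i).ap ⟨x 0, x 1, x 2, x 3⟩).fn := by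
  rw [← H378.OmD4.isM_refl cs i]
  congr 1
  funext m
  fin_cases m <;> rfl

theorem r0 (x : Fin 4 → ℤ) : rep cs RGDTwD4.hp.isCartan (cs.simple 0) x = ![x 1 - x 0, x 1, x 2, x 3] := by
  rw [ri]
  funext m
  fin_cases m <;> simp [H378.OmD4.refl, H378.OmD4.Mx.ap, H378.OmD4.V.fn] <;> ring

theorem r1 (x : Fin 4 → ℤ) : rep cs RGDTwD4.hp.isCartan (cs.simple 1) x = ![x 0, x 0 + x 2 + x 3 - x 1, x 2, x 3] := by
  rw [ri]
  funext m
  fin_cases m <;> simp [H378.OmD4.refl, H378.OmD4.Mx.ap, H378.OmD4.V.fn] <;> ring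

theorem r2 (x : Fin 4 → ℤ) : rep cs RGDTwD4.hp.isCartan (cs.simple 2) x = ![x 0, x 1, x 1 - x 2, x 3] := by
  rw [ri]
  funext m
  fin_cases m <;> simp [H378.OmD4.refl, H378.OmD4.Mx.ap, H378.OmD4.V.fn] <;> ring

theorem r3 (x : Fin 4 → ℤ) : rep cs RGDTwD4.hp.isCartan (cs.simple 3) x = ![x 0, x 1, x 2, x 1 - x 3] := by
  rw [ri]
  funext m
  fin_cases m <;> simp [H378.OmD4.refl, H378.OmD4.Mx.ap, H378.OmD4.V.fn] <;> ring

/-- the longest element -/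
def w0 : W := (cs.simple 0 * cs.simple 1 * cs.simple 2 * cs.simple 3) ^ 3

theorem rep_c (x : Fin 4 → ℤ) : rep cs RGDTwD4.hp.isCartan (cs.simple 0 * cs.simple 1 * cs.simple 2 * cs.simple 3) x =
    ![x 1 - x 2 - x 3, x 0 + x 1 - x 2 - x 3, x 1 - x 2, x 1 - x 3] := by
  rw [rep_mul_apply, rep_mul_apply, rep_mul_apply, r3, r2, r1, r0]
  funext m
  fin_cases m <;> simp <;> ring

theorem rep_w0 (x : Fin 4 → ℤ) : rep cs RGDTwD4.hp.isCartan (w0 cs) x = -x := by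
  rw [w0, pow_succ, pow_two, rep_mul_apply, rep_mul_apply, rep_c, rep_c, rep_c]
  funext m
  fin_cases m <;> simp <;> ring

theorem rep_s (x : Fin 4 → ℤ) : rep cs RGDTwD4.hp.isCartan (cs.simple 1 * cs.simple 0) (tri x) =
    ![x 1 - x 3, x 0 + x 2 - x 3, x 0, x 2] := by
  rw [rep_mul_apply, r0, r1, tri_apply]
  funext m
  fin_cases m <;> simp <;> ring

end Theta

/-- a linear functional -/
def lf (a b c d : ℤ) : (Fin 4 → ℤ) →+ ℤ where
  toFun x := a * x 0 + b * x 1 + c * x 2 + d * x 3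
  map_zero' := by simp
  map_add' x y := by simp only [Pi.add_apply]; ring

theorem lf_apply (a b c d : ℤ) (x : Fin 4 → ℤ) : lf a b c d x = a * x 0 + b * x 1 + c * x 2 + d * x 3 := rfl

theorem elt_of {K : Type} [Field K] [Fintype K] {q : ℕ} (hq : IsPrimePow q) (hK : Fintype.card K = q ^ 3) {p m : ℕ}
    (hp : p.Prime) (hpq : ¬ p ∣ q) (hm : 2 ≤ m)
    (lam : (Fin 4 → ℤ) →+ ℤ) (w : coxeterD4.Group)
    (h : ∀ x, ((p ^ m : ℕ) : ℤ) ∣ lam (rep coxeterD4.toCoxeterSystem RGDTwD4.hp.isCartan w (tri x)) - q * lam x)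
    {r : ℕ} (hr : ¬ p ∣ r)
    (hc : ¬ p ∣ (Finset.univ.filter fun s : Fin 24 => ((p ^ (m - 1) : ℕ) : ℤ) ∣ lam (vec chevD4 4 s) - r).card) :
    ∃ y ∈ twistedD4 K q, ∃ (k : Type) (_ : Field k) (f : K →+* k) (z : k) (ex : chevD4.Idx → ℕ),
      IsPrimitiveRoot z (p ^ m) ∧ Eig (y : Matrix chevD4.Idx chevD4.Idx K) f z ex ∧ Cnt p m ex := by
  obtain ⟨k, _, _, f, s, _, hC, n, hk, -, hn0, hn⟩ := H378.TorFin.exists_closure K
  have hs : s.Prime := Fact.out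
  have hW := finite_W RGDTwD4.hp coxeterD4.toCoxeterSystem
  obtain ⟨e, he, hqe⟩ : ∃ e, 0 < e ∧ q = s ^ e := by
    obtain ⟨s', e, hs', he, rfl⟩ := hq
    have hs'' : s'.Prime := hs'.nat_prime
    have h1 : s ∣ (s' ^ e) ^ 3 := by
      rw [← hK, ← Nat.card_eq_fintype_card, hn]
      exact dvd_pow_self _ hn0.ne'
    have h2 : s = s' := (Nat.prime_dvd_prime_iff_eq hs hs'').1 (hs.dvd_of_dvd_pow (hs.dvd_of_dvd_pow h1))
    exact ⟨e, he, by rw [h2]⟩
  have hps : p ≠ s := by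
    rintro rfl
    exact hpq (hqe ▸ dvd_pow_self _ he.ne')
  have hN : p ^ m ≠ 0 := pow_ne_zero _ hp.ne_zero
  have hNk : NeZero ((p ^ m : ℕ) : k) := by
    refine ⟨fun h0 => ?_⟩
    rw [CharP.cast_eq_zero_iff k s] at h0
    exact hps ((Nat.prime_dvd_prime_iff_eq hs hp).1 (hs.dvd_of_dvd_pow h0)).symm
  obtain ⟨z, hz⟩ := HasEnoughRootsOfUnity.exists_primitiveRoot k (p ^ m)
  have hz0 : z ≠ 0 := hz.ne_zero hN
  obtain ⟨y, hy, hch⟩ := exists_elt hk f he hqe hq hK coxeterD4.toCoxeterSystem w lam hN hz.pow_eq_one h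
  refine ⟨y, hy, k, inferInstance, f, z, Sum.elim (fun _ => 0)
    (fun s : Fin 24 => (lam (vec chevD4 4 s) % ((p ^ m : ℕ) : ℤ)).toNat), hz, ?_, ?_⟩
  · rw [Eig, hch]
    refine Finset.prod_congr rfl fun i _ => ?_
    congr 2
    rcases i with i | i
    · exact (pow_zero z).symm
    · show z ^ lam (vec chevD4 4 i) = z ^ (lam (vec chevD4 4 i) % ((p ^ m : ℕ) : ℤ)).toNat
      rw [← zpow_natCast, Int.toNat_of_nonneg (Int.emod_nonneg _ (by exact_mod_cast hN))]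
      conv_lhs => rw [← Int.emod_add_mul_ediv (lam (vec chevD4 4 i)) ((p ^ m : ℕ) : ℤ)]
      rw [zpow_add₀ hz0, zpow_mul, zpow_natCast, hz.pow_eq_one, one_zpow, mul_one]
  · refine ⟨r, hr, Or.inl ?_⟩
    have hcp : p ∣ p ^ (m - 1) := dvd_pow_self _ (by omega)
    have e1 : (Finset.univ.filter fun i : chevD4.Idx => (Sum.elim (fun _ => 0)
        (fun s : Fin 24 => (lam (vec chevD4 4 s) % ((p ^ m : ℕ) : ℤ)).toNat) : chevD4.Idx → ℕ) i % p ^ (m - 1) =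
          r % p ^ (m - 1)) =
        (Finset.univ.filter fun s : Fin 24 => ((p ^ (m - 1) : ℕ) : ℤ) ∣ lam (vec chevD4 4 s) - r).map
          (⟨Sum.inr, Sum.inr_injective⟩ : Fin 24 ↪ chevD4.Idx) := by
      ext i
      rw [Finset.mem_filter, Finset.mem_map]
      constructor
      · rintro ⟨-, h1⟩
        rcases i with i | i
        · exfalso
          apply hr
          have h2 : p ^ (m - 1) ∣ r := Nat.dvd_of_mod_eq_zero (by rw [← h1]; exact Nat.zero_mod _)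
          exact hcp.trans h2
        · refine ⟨(i : Fin 24), Finset.mem_filter.2 ⟨Finset.mem_univ _, ?_⟩, rfl⟩
          have h2 : (lam (vec chevD4 4 i) % ((p ^ m : ℕ) : ℤ)).toNat % p ^ (m - 1) = r % p ^ (m - 1) := h1
          have h3 : ((((lam (vec chevD4 4 i) % ((p ^ m : ℕ) : ℤ)).toNat : ℕ) : ℤ)) ≡ (r : ℤ)
              [ZMOD ((p ^ (m - 1) : ℕ) : ℤ)] := Int.natCast_modEq_iff.2 h2
          rw [Int.toNat_of_nonneg (Int.emod_nonneg _ (by exact_mod_cast hN))] at h3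
          have h4 : lam (vec chevD4 4 i) % ((p ^ m : ℕ) : ℤ) ≡ lam (vec chevD4 4 i) [ZMOD ((p ^ (m - 1) : ℕ) : ℤ)] :=
            (Int.mod_modEq _ _).of_dvd (by exact_mod_cast pow_dvd_pow p (by omega))
          exact (h3.symm.trans h4).dvd
      · rintro ⟨j, hj, rfl⟩
        rw [Finset.mem_filter] at hj
        refine ⟨Finset.mem_univ _, ?_⟩
        show (lam (vec chevD4 4 j) % ((p ^ m : ℕ) : ℤ)).toNat % p ^ (m - 1) = r % p ^ (m - 1)
        have h4 : lam (vec chevD4 4 j) % ((p ^ m : ℕ) : ℤ) ≡ lam (vec chevD4 4 j) [ZMOD ((p ^ (m - 1) : ℕ) : ℤ)] :=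
          (Int.mod_modEq _ _).of_dvd (by exact_mod_cast pow_dvd_pow p (by omega))
        have h5 : (r : ℤ) ≡ lam (vec chevD4 4 j) [ZMOD ((p ^ (m - 1) : ℕ) : ℤ)] := Int.modEq_iff_dvd.2 hj.2
        have h6 : ((((lam (vec chevD4 4 j) % ((p ^ m : ℕ) : ℤ)).toNat : ℕ) : ℤ)) ≡ (r : ℤ)
              [ZMOD ((p ^ (m - 1) : ℕ) : ℤ)] := by
          rw [Int.toNat_of_nonneg (Int.emod_nonneg _ (by exact_mod_cast hN))]
          exact h4.trans h5.symm
        exact Int.natCast_modEq_iff.1 h6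
    rw [e1, Finset.card_map]
    exact hc

/-! ### the counts -/

theorem vec_a (s : Fin 24) : lf (-1) 2 (-1) (-1) (vec chevD4 4 s) ∈ ([-2, -1, 0, 1, 2] : List ℤ) := by
  revert s; decide +kernel

theorem card_a : (Finset.univ.filter fun s : Fin 24 => lf (-1) 2 (-1) (-1) (vec chevD4 4 s) = 2).card = 1 := by
  decide +kernel

theorem count_a {c : ℕ} (hc : 5 ≤ c) :
    (Finset.univ.filter fun s : Fin 24 => (c : ℤ) ∣ lf (-1) 2 (-1) (-1) (vec chevD4 4 s) - (2 : ℕ)).card = 1 := by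
  rw [← card_a]
  congr 1
  refine Finset.filter_congr fun s _ => ⟨fun h => ?_, fun h => by rw [h]; simp⟩
  obtain ⟨d, hd⟩ := h
  have h1 := vec_a s
  simp only [List.mem_cons, List.not_mem_nil, or_false] at h1
  have h2 : d = 0 := by
    by_contra h0
    rcases lt_or_gt_of_ne h0 with h3 | h3
    · have : (c : ℤ) * d ≤ -5 := by nlinarith
      push_cast at hd
      omega
    · have : 5 ≤ (c : ℤ) * d := by nlinarith
      push_cast at hd
      omega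
  rw [h2] at hd
  push_cast at hd
  omega

theorem vec_b (s : Fin 24) : (lf 0 0 (-1) 1 (vec chevD4 4 s), lf 1 0 (-1) 0 (vec chevD4 4 s)) ∈
    ([(0, 0), (1, 0), (-1, 0), (0, 1), (0, -1), (1, 1), (-1, -1)] : List (ℤ × ℤ)) := by
  revert s; decide +kernel

theorem card_b : (Finset.univ.filter fun s : Fin 24 => lf 0 0 (-1) 1 (vec chevD4 4 s) = 1 ∧
    lf 1 0 (-1) 0 (vec chevD4 4 s) = 0).card = 3 := by
  decide +kernel

theorem count_b {p c : ℕ} (hp : p.Prime) (hp5 : 5 ≤ p) (hpc : p ∣ c) {Q : ℤ} (hQ : (p : ℤ) ∣ Q ^ 2 + Q + 1) :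
    (Finset.univ.filter fun s : Fin 24 => (c : ℤ) ∣ lf Q 0 (-(1 + Q)) 1 (vec chevD4 4 s) - (1 : ℕ)).card = 3 := by
  have hpi : Prime (p : ℤ) := Nat.prime_iff_prime_int.1 hp
  have small : ∀ a : ℤ, (p : ℤ) ∣ a → -4 ≤ a → a ≤ 4 → a = 0 := by
    rintro a ⟨d, rfl⟩ h1 h2
    by_contra h0
    have hd : d ≠ 0 := by rintro rfl; simp at h0
    rcases lt_or_gt_of_ne hd with h3 | h3
    · have : (p : ℤ) * d ≤ -5 := by nlinarith
      omega
    · have : 5 ≤ (p : ℤ) * d := by nlinarith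
      omega
  rw [← card_b]
  congr 1
  refine Finset.filter_congr fun s _ => ?_
  have e1 : lf Q 0 (-(1 + Q)) 1 (vec chevD4 4 s) - (1 : ℕ) = lf 0 0 (-1) 1 (vec chevD4 4 s) +
      lf 1 0 (-1) 0 (vec chevD4 4 s) * Q - 1 := by
    rw [lf_apply, lf_apply, lf_apply]; push_cast; ring
  rw [e1]
  constructor
  · intro h
    have h1 : (p : ℤ) ∣ lf 0 0 (-1) 1 (vec chevD4 4 s) + lf 1 0 (-1) 0 (vec chevD4 4 s) * Q - 1 :=
      (by exact_mod_cast hpc : (p : ℤ) ∣ (c : ℤ)).trans h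
    have h2 := vec_b s
    simp only [List.mem_cons, List.not_mem_nil, or_false, Prod.mk.injEq] at h2
    rcases h2 with ⟨h3, h4⟩ | ⟨h3, h4⟩ | ⟨h3, h4⟩ | ⟨h3, h4⟩ | ⟨h3, h4⟩ | ⟨h3, h4⟩ | ⟨h3, h4⟩ <;>
      rw [h3, h4] at h1
    · exfalso
      have := small _ h1 (by norm_num) (by norm_num)
      norm_num at this
    · exact ⟨h3, h4⟩
    · exfalso
      have := small _ h1 (by norm_num) (by norm_num)
      norm_num at this
    · exfalso
      have h5 : (p : ℤ) ∣ (Q ^ 2 + Q + 1) - (Q + 2) * (0 + 1 * Q - 1) := dvd_sub hQ (h1.mul_left _)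
      have := small _ (by convert h5 using 1; ring : (p : ℤ) ∣ 3) (by norm_num) (by norm_num)
      norm_num at this
    · exfalso
      have h5 : (p : ℤ) ∣ (Q ^ 2 + Q + 1) + Q * (0 + -1 * Q - 1) := dvd_add hQ (h1.mul_left _)
      have := small _ (by convert h5 using 1; ring : (p : ℤ) ∣ 1) (by norm_num) (by norm_num)
      norm_num at this
    · exfalso
      have h5 : (p : ℤ) ∣ (Q ^ 2 + Q + 1) - (Q + 1) * (1 + 1 * Q - 1) := dvd_sub hQ (h1.mul_left _)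
      have := small _ (by convert h5 using 1; ring : (p : ℤ) ∣ 1) (by norm_num) (by norm_num)
      norm_num at this
    · exfalso
      have h5 : (p : ℤ) ∣ (Q ^ 2 + Q + 1) + (Q - 1) * (-1 + -1 * Q - 1) := dvd_add hQ (h1.mul_left _)
      have := small _ (by convert h5 using 1; ring : (p : ℤ) ∣ 3) (by norm_num) (by norm_num)
      norm_num at this
  · rintro ⟨h3, h4⟩
    rw [h3, h4]
    simp

theorem vec_rev (s : Fin 24) : vec chevD4 4 (Fin.rev s : Fin 24) = -vec chevD4 4 s := by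
  revert s; decide +kernel

theorem count_c {c : ℕ} (hc : 3 ≤ c) (lam : (Fin 4 → ℤ) →+ ℤ) (h1 : lam (vec chevD4 4 ((14 : Fin 24) : ℕ)) = 1) :
    0 < (Finset.univ.filter fun s : Fin 24 => (c : ℤ) ∣ lam (vec chevD4 4 s) - (1 : ℕ)).card ∧
      (Finset.univ.filter fun s : Fin 24 => (c : ℤ) ∣ lam (vec chevD4 4 s) - (1 : ℕ)).card ≤ 12 := by
  set S := Finset.univ.filter fun s : Fin 24 => (c : ℤ) ∣ lam (vec chevD4 4 s) - (1 : ℕ) with hS
  constructor
  · exact Finset.card_pos.2 ⟨14, Finset.mem_filter.2 ⟨Finset.mem_univ _, by rw [h1]; simp⟩⟩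
  · have hd : Disjoint S (S.map Fin.revPerm.toEmbedding) := by
      rw [Finset.disjoint_left]
      intro s hs h2
      obtain ⟨t, ht, rfl⟩ := Finset.mem_map.1 h2
      have h3 := (Finset.mem_filter.1 hs).2
      have h4 := (Finset.mem_filter.1 ht).2
      have e1 : vec chevD4 4 ((Fin.revPerm.toEmbedding t : Fin 24) : ℕ) = -vec chevD4 4 t := vec_rev t
      rw [e1, map_neg] at h3
      have h5 := dvd_add h3 h4
      have h6 : (c : ℤ) ∣ 2 := by
        have : (-lam (vec chevD4 4 t) - (1 : ℕ) + (lam (vec chevD4 4 t) - (1 : ℕ)) : ℤ) = -2 := by push_cast; ring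
        rw [this] at h5
        exact (dvd_neg.1 h5)
      have h7 := Int.le_of_dvd (by norm_num) h6
      omega
    have h2 : (S ∪ S.map Fin.revPerm.toEmbedding).card ≤ 24 := by
      have := Finset.card_le_univ (S ∪ S.map Fin.revPerm.toEmbedding)
      rwa [Fintype.card_fin] at this
    rw [Finset.card_union_of_disjoint hd, Finset.card_map] at h2
    omega

/-! ### arithmetic -/

theorem strip {p m : ℕ} (hp : p.Prime) {a b : ℤ} (h : ((p ^ m : ℕ) : ℤ) ∣ a * b) (ha : ¬ (p : ℤ) ∣ a) :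
    ((p ^ m : ℕ) : ℤ) ∣ b := by
  have hpi : Prime (p : ℤ) := Nat.prime_iff_prime_int.1 hp
  have h1 : IsCoprime (p : ℤ) a := hpi.coprime_iff_not_dvd.2 ha
  have h2 : IsCoprime ((p ^ m : ℕ) : ℤ) a := by push_cast; exact h1.pow_left
  exact h2.dvd_of_dvd_mul_left h

theorem pow_eq_iff {p q d : ℕ} : ((q : ℕ) : ZMod p) ^ d = 1 ↔ (p : ℤ) ∣ (q : ℤ) ^ d - 1 := by
  rw [← ZMod.intCast_zmod_eq_zero_iff_dvd]
  push_cast
  rw [sub_eq_zero]

theorem nd {p q e : ℕ} (he : orderOf ((q : ℕ) : ZMod p) = e) (d : ℕ) (hd0 : 0 < d) (hd : d < e) :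
    ¬ (p : ℤ) ∣ (q : ℤ) ^ d - 1 := fun h =>
  absurd (orderOf_le_of_pow_eq_one hd0 (pow_eq_iff.2 h)) (by omega)

theorem elt5 {K : Type} [Field K] [Fintype K] {q : ℕ} (hq : IsPrimePow q) (hK : Fintype.card K = q ^ 3) {p : ℕ}
    (hp : p.Prime) (hp5 : 5 ≤ p) (hpq : ¬ p ∣ q) (hpG : p ∣ Nat.card (twistedD4 K q)) :
    HasElt p (twistedD4 K q) q := by
  have : Fact p.Prime := ⟨hp⟩
  have hq1 : 1 < q := hq.one_lt
  have hpi : Prime (p : ℤ) := Nat.prime_iff_prime_int.1 hp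
  have hqz : ((q : ℕ) : ZMod p) ≠ 0 := fun h => hpq ((ZMod.natCast_eq_zero_iff q p).1 h)
  have hcast : ∀ n : ℕ, ((q ^ n - 1 : ℕ) : ℤ) = (q : ℤ) ^ n - 1 := fun n => by
    rw [Nat.cast_sub (Nat.one_le_pow _ _ (by omega))]; push_cast; rfl
  have h12 : ((q : ℕ) : ZMod p) ^ 12 = 1 ∧ ((q : ℕ) : ZMod p) ^ 4 = 1 → ((q : ℕ) : ZMod p) ^ 2 = 1 := by
    rintro ⟨-, h4⟩
    by_contra h2
    rw [S1067.result hq hK] at hpG
    have h6 : ¬ p ∣ q ^ 6 - 1 := fun h => by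
      have h' : (p : ℤ) ∣ (q : ℤ) ^ 6 - 1 := by rw [← hcast]; exact_mod_cast h
      have h3 := pow_eq_iff.2 h'
      apply h2
      calc ((q : ℕ) : ZMod p) ^ 2 = ((q : ℕ) : ZMod p) ^ 2 * ((q : ℕ) : ZMod p) ^ 4 := by rw [h4, mul_one]
        _ = ((q : ℕ) : ZMod p) ^ 6 := by ring
        _ = 1 := h3
    have h2' : ¬ p ∣ q ^ 2 - 1 := fun h => by
      have h' : (p : ℤ) ∣ (q : ℤ) ^ 2 - 1 := by rw [← hcast]; exact_mod_cast h
      exact h2 (pow_eq_iff.2 h')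
    have h8 : p ∣ q ^ 8 + q ^ 4 + 1 := by
      rcases hp.dvd_mul.1 hpG with h | h
      · rcases hp.dvd_mul.1 h with h | h
        · rcases hp.dvd_mul.1 h with h | h
          · exact absurd (hp.dvd_of_dvd_pow h) hpq
          · exact absurd h h2'
        · exact absurd h h6
      · exact h
    have h9 : ((q ^ 8 + q ^ 4 + 1 : ℕ) : ZMod p) = 0 := (ZMod.natCast_eq_zero_iff _ _).2 h8
    push_cast at h9
    rw [show (q : ZMod p) ^ 8 = ((q : ZMod p) ^ 4) ^ 2 by ring, h4] at h9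
    have h10 : ((3 : ℕ) : ZMod p) = 0 := by
      rw [← h9]; push_cast; norm_num
    have h11 := Nat.le_of_dvd (by norm_num) ((ZMod.natCast_eq_zero_iff 3 p).1 h10)
    omega
  have hq12 : ((q : ℕ) : ZMod p) ^ 12 = 1 := by
    rw [S1067.result hq hK] at hpG
    rcases hp.dvd_mul.1 hpG with h | h
    · rcases hp.dvd_mul.1 h with h | h
      · rcases hp.dvd_mul.1 h with h | h
        · exact absurd (hp.dvd_of_dvd_pow h) hpq
        · have h' : (p : ℤ) ∣ (q : ℤ) ^ 2 - 1 := by rw [← hcast]; exact_mod_cast h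
          rw [show 12 = 2 * 6 by norm_num, pow_mul, pow_eq_iff.2 h', one_pow]
      · have h' : (p : ℤ) ∣ (q : ℤ) ^ 6 - 1 := by rw [← hcast]; exact_mod_cast h
        rw [show 12 = 6 * 2 by norm_num, pow_mul, pow_eq_iff.2 h', one_pow]
    · rw [pow_eq_iff]
      have h' : (p : ℤ) ∣ (q : ℤ) ^ 8 + (q : ℤ) ^ 4 + 1 := by exact_mod_cast h
      have : (q : ℤ) ^ 12 - 1 = ((q : ℤ) ^ 8 + (q : ℤ) ^ 4 + 1) * ((q : ℤ) ^ 4 - 1) := by ring
      rw [this]
      exact h'.mul_right _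
  have hed := orderOf_dvd_of_pow_eq_one hq12
  intro m hm hm1 _
  have hm0 : m ≠ 0 := by omega
  have hpm : (p : ℤ) ∣ ((p ^ m : ℕ) : ℤ) := by exact_mod_cast dvd_pow_self p hm0
  have hpc : p ∣ p ^ (m - 1) := dvd_pow_self _ (by omega)
  have hc5 : 5 ≤ p ^ (m - 1) := hp5.trans (Nat.le_of_dvd (pow_pos hp.pos _) hpc)
  have hm1' : ((p ^ m : ℕ) : ℤ) ∣ (q : ℤ) ^ orderOf ((q : ℕ) : ZMod p) - 1 := by
    rw [← hcast]; exact_mod_cast hm1
  have hnd := nd (p := p) (q := q) rfl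
  have hcases : orderOf ((q : ℕ) : ZMod p) = 1 ∨ orderOf ((q : ℕ) : ZMod p) = 2 ∨ orderOf ((q : ℕ) : ZMod p) = 3 ∨
      orderOf ((q : ℕ) : ZMod p) = 6 ∨ orderOf ((q : ℕ) : ZMod p) = 12 := by
    have h1 : orderOf ((q : ℕ) : ZMod p) ≤ 12 := Nat.le_of_dvd (by norm_num) hed
    have h2 : orderOf ((q : ℕ) : ZMod p) ≠ 4 := fun h => by
      have h4 : ((q : ℕ) : ZMod p) ^ 4 = 1 := by rw [← h]; exact pow_orderOf_eq_one _
      have := orderOf_dvd_of_pow_eq_one (h12 ⟨hq12, h4⟩)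
      rw [h] at this
      omega
    interval_cases h : orderOf ((q : ℕ) : ZMod p) <;> first | omega | (exfalso; revert hed; decide)
  set w₀ := w0 coxeterD4.toCoxeterSystem with hw₀
  rcases hcases with he | he | he | he | he
  · rw [he, pow_one] at hm1'
    refine elt_of hq hK hp hpq hm (lf (-1) 2 (-1) (-1)) 1 (fun x => ?_) (r := 2) ?_ ?_
    · rw [map_one, Module.End.one_apply, tri_apply, lf_apply, lf_apply]
      have : (-1 * (![x 3, x 1, x 0, x 2] : Fin 4 → ℤ) 0 + 2 * (![x 3, x 1, x 0, x 2] : Fin 4 → ℤ) 1 +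
          -1 * (![x 3, x 1, x 0, x 2] : Fin 4 → ℤ) 2 + -1 * (![x 3, x 1, x 0, x 2] : Fin 4 → ℤ) 3 -
          (q : ℤ) * (-1 * x 0 + 2 * x 1 + -1 * x 2 + -1 * x 3)) =
          ((q : ℤ) - 1) * (-(-1 * x 0 + 2 * x 1 + -1 * x 2 + -1 * x 3)) := by
        simp
        ring
      rw [this]
      exact hm1'.mul_right _
    · intro h
      have := Nat.le_of_dvd (by norm_num) h
      omega
    · rw [count_a hc5]
      exact hp.not_dvd_one
  · rw [he] at hm1'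
    have h1 : ((p ^ m : ℕ) : ℤ) ∣ (q : ℤ) + 1 := by
      refine strip hp (a := (q : ℤ) ^ 1 - 1) ?_ (hnd 1 (by norm_num) (by omega))
      convert hm1' using 1
      ring
    refine elt_of hq hK hp hpq hm (lf (-1) 2 (-1) (-1)) w₀ (fun x => ?_) (r := 2) ?_ ?_
    · rw [hw₀, rep_w0, map_neg, tri_apply, lf_apply, lf_apply]
      have : (-(-1 * (![x 3, x 1, x 0, x 2] : Fin 4 → ℤ) 0 + 2 * (![x 3, x 1, x 0, x 2] : Fin 4 → ℤ) 1 +
          -1 * (![x 3, x 1, x 0, x 2] : Fin 4 → ℤ) 2 + -1 * (![x 3, x 1, x 0, x 2] : Fin 4 → ℤ) 3) -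
          (q : ℤ) * (-1 * x 0 + 2 * x 1 + -1 * x 2 + -1 * x 3)) =
          ((q : ℤ) + 1) * (-(-1 * x 0 + 2 * x 1 + -1 * x 2 + -1 * x 3)) := by
        simp
        ring
      rw [this]
      exact h1.mul_right _
    · intro h
      have := Nat.le_of_dvd (by norm_num) h
      omega
    · rw [count_a hc5]
      exact hp.not_dvd_one
  · rw [he] at hm1'
    have h1 : ((p ^ m : ℕ) : ℤ) ∣ (q : ℤ) ^ 2 + q + 1 := by
      refine strip hp (a := (q : ℤ) ^ 1 - 1) ?_ (hnd 1 (by norm_num) (by omega))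
      convert hm1' using 1
      ring
    refine elt_of hq hK hp hpq hm (lf q 0 (-(1 + q)) 1) 1 (fun x => ?_) (r := 1) hp.not_dvd_one ?_
    · rw [map_one, Module.End.one_apply, tri_apply, lf_apply, lf_apply]
      have : ((q : ℤ) * (![x 3, x 1, x 0, x 2] : Fin 4 → ℤ) 0 + 0 * (![x 3, x 1, x 0, x 2] : Fin 4 → ℤ) 1 +
          -(1 + (q : ℤ)) * (![x 3, x 1, x 0, x 2] : Fin 4 → ℤ) 2 + 1 * (![x 3, x 1, x 0, x 2] : Fin 4 → ℤ) 3 -
          (q : ℤ) * ((q : ℤ) * x 0 + 0 * x 1 + -(1 + (q : ℤ)) * x 2 + 1 * x 3)) =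
          ((q : ℤ) ^ 2 + q + 1) * (x 2 - x 0) := by
        simp
        ring
      rw [this]
      exact h1.mul_right _
    · rw [count_b hp hp5 hpc (hpm.trans h1)]
      intro h
      have := Nat.le_of_dvd (by norm_num) h
      omega
  · rw [he] at hm1'
    have h1 : ((p ^ m : ℕ) : ℤ) ∣ (-(q : ℤ)) ^ 2 + (-q) + 1 := by
      have h2 : ((p ^ m : ℕ) : ℤ) ∣ ((q : ℤ) ^ 3 - 1) * (((q : ℤ) + 1) * ((-(q : ℤ)) ^ 2 + (-q) + 1)) := by
        convert hm1' using 1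
        ring
      refine strip hp (strip hp h2 (hnd 3 (by norm_num) (by omega))) fun h3 => hnd 2 (by norm_num) (by omega) ?_
      have : (q : ℤ) ^ 2 - 1 = ((q : ℤ) + 1) * (q - 1) := by ring
      rw [this]
      exact h3.mul_right _
    refine elt_of hq hK hp hpq hm (lf (-q) 0 (-(1 + -q)) 1) w₀ (fun x => ?_) (r := 1) hp.not_dvd_one ?_
    · rw [hw₀, rep_w0, map_neg, tri_apply, lf_apply, lf_apply]
      have : (-(-(q : ℤ) * (![x 3, x 1, x 0, x 2] : Fin 4 → ℤ) 0 + 0 * (![x 3, x 1, x 0, x 2] : Fin 4 → ℤ) 1 +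
          -(1 + -(q : ℤ)) * (![x 3, x 1, x 0, x 2] : Fin 4 → ℤ) 2 + 1 * (![x 3, x 1, x 0, x 2] : Fin 4 → ℤ) 3) -
          (q : ℤ) * (-(q : ℤ) * x 0 + 0 * x 1 + -(1 + -(q : ℤ)) * x 2 + 1 * x 3)) =
          ((-(q : ℤ)) ^ 2 + (-q) + 1) * (x 0 - x 2) := by
        simp
        ring
      rw [this]
      exact h1.mul_right _
    · rw [count_b hp hp5 hpc (hpm.trans h1)]
      intro h
      have := Nat.le_of_dvd (by norm_num) h
      omega
  · rw [he] at hm1'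
    have hp13 : 13 ≤ p := by
      have h1 := ZMod.orderOf_dvd_card_sub_one hqz
      rw [he] at h1
      have := Nat.le_of_dvd (by omega) h1
      omega
    have h1 : ((p ^ m : ℕ) : ℤ) ∣ (q : ℤ) ^ 4 - q ^ 2 + 1 := by
      have h2 : ((p ^ m : ℕ) : ℤ) ∣ ((q : ℤ) ^ 6 - 1) * (((q : ℤ) ^ 2 + 1) * ((q : ℤ) ^ 4 - q ^ 2 + 1)) := by
        convert hm1' using 1
        ring
      refine strip hp (strip hp h2 (hnd 6 (by norm_num) (by omega))) fun h3 => hnd 4 (by norm_num) (by omega) ?_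
      have : (q : ℤ) ^ 4 - 1 = ((q : ℤ) ^ 2 + 1) * (q ^ 2 - 1) := by ring
      rw [this]
      exact h3.mul_right _
    obtain ⟨c1, c2⟩ := count_c (c := p ^ (m - 1)) (by omega) (lf q 1 (q ^ 2 - 1) (q ^ 3 - q - 1)) (by
      have : vec chevD4 4 ((14 : Fin 24) : ℕ) = ![0, 1, 0, 0] := by decide +kernel
      rw [this, lf_apply]
      simp)
    refine elt_of hq hK hp hpq hm (lf q 1 (q ^ 2 - 1) (q ^ 3 - q - 1))
      (coxeterD4.toCoxeterSystem.simple 1 * coxeterD4.toCoxeterSystem.simple 0) (fun x => ?_) (r := 1)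
      hp.not_dvd_one ?_
    · rw [rep_s, lf_apply, lf_apply]
      have : ((q : ℤ) * (![x 1 - x 3, x 0 + x 2 - x 3, x 0, x 2] : Fin 4 → ℤ) 0 +
          1 * (![x 1 - x 3, x 0 + x 2 - x 3, x 0, x 2] : Fin 4 → ℤ) 1 +
          ((q : ℤ) ^ 2 - 1) * (![x 1 - x 3, x 0 + x 2 - x 3, x 0, x 2] : Fin 4 → ℤ) 2 +
          ((q : ℤ) ^ 3 - q - 1) * (![x 1 - x 3, x 0 + x 2 - x 3, x 0, x 2] : Fin 4 → ℤ) 3 -
          (q : ℤ) * ((q : ℤ) * x 0 + 1 * x 1 + ((q : ℤ) ^ 2 - 1) * x 2 + ((q : ℤ) ^ 3 - q - 1) * x 3)) =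
          ((q : ℤ) ^ 4 - q ^ 2 + 1) * (-x 3) := by
        simp
        ring
      rw [this]
      exact h1.mul_right _
    · intro h
      have := Nat.le_of_dvd c1 h
      omega

end Cfsg.Agent.H566.HT
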