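import Cfsg.Agent.H28.FamFour
import Cfsg.Agent.S2129
import Cfsg.Agent.H234.HT.OutD

/-!
# S4933, part (O), `³D₄(q)`: the data about the automorphisms (helper566)
-/

set_option autoImplicit false
set_option linter.unusedSectionVars false

namespace Cfsg.Agent.H566.HT

open Cfsg Cfsg.Lie Cfsg.Agent.ChevalleyStructure Cfsg.Agent.ChevalleyStructure.Elts Cfsg.Agent.ChevStructure.FieldMap
open Cfsg.Agent.ChevalleyStructure.GraphSymm (symmD4a)
open Cfsg.Agent.CpAut.RgdTwStd Cfsg.Agent.CpAut.RgdTwD4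
open Cfsg.Agent.CpAut.RgdUntw (fld)
open Cfsg.Agent.BpExc.FamTw.Gr Cfsg.Agent.H28.FamFour
open Cfsg.Agent.BpExc.FamField (frb frb_apply)
open Cfsg.Agent.H234.HT
open Polynomial

section

variable {K : Type} [Field K] [Fintype K] {q : ℕ}

theorem coe_st (τ : K ≃+* K) (x : ↥(twistedD4 K q)) :
    (((st q τ x : ↥(twistedD4 K q)) : GL chevD4.Idx K) : Matrix chevD4.Idx chevD4.Idx K) =
      ((x : GL chevD4.Idx K) : Matrix chevD4.Idx chevD4.Idx K).map τ := rfl

theorem cp_st (τ : K ≃+* K) (x : ↥(twistedD4 K q)) : cp (st q τ x) = (cp x).map (τ : K →+* K) := by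
  show (((st q τ x : ↥(twistedD4 K q)) : GL chevD4.Idx K) : Matrix chevD4.Idx chevD4.Idx K).charpoly =
    (((x : GL chevD4.Idx K) : Matrix chevD4.Idx chevD4.Idx K).charpoly).map _
  rw [coe_st, ← Matrix.charpoly_map]
  rfl

/-- **All automorphisms act on the characteristic polynomials as field automorphisms.** -/
theorem exists_cp_map (hq : IsPrimePow q) (hK : Fintype.card K = q ^ 3) (g : MulAut ↥(twistedD4 K q)) :
    ∃ τ : K ≃+* K, ∀ x, cp (g x) = (cp x).map (τ : K →+* K) := by
  obtain ⟨φ, hφ⟩ := D4Fixed.exists_frob hq hK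
  obtain ⟨r, n, hr', hn, hqn⟩ := id hq
  have hr : r.Prime := hr'.nat_prime
  have : Fact r.Prime := ⟨hr⟩
  have hc : CharP K r := charP_of_card_eq_prime_pow (f := n * 3) (by rw [hK, ← hqn, ← pow_mul])
  have hc' : CharP (AlgebraicClosure K) r := charP_of_injective_algebraMap (algebraMap K _).injective r
  obtain ⟨cs', -⟩ : ∃ cs : CoxeterSystem CoxeterMatrix.G₂ CoxeterMatrix.G₂.Group, cs = cs :=
    ⟨CoxeterMatrix.G₂.toCoxeterSystem, rfl⟩
  have hroot : ∀ a : K, ∃ b : AlgebraicClosure K, b ^ 2 = algebraMap K (AlgebraicClosure K) a :=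
    fun a => IsAlgClosed.exists_pow_nat_eq _ two_pos
  have hΦf : ∀ a, frb (AlgebraicClosure K) r n (algebraMap K (AlgebraicClosure K) a) =
      algebraMap K (AlgebraicClosure K) (φ a) := fun a => by
    rw [frb_apply, hφ, map_pow, hqn]
  obtain ⟨a, τ, y, -, -, hxy⟩ := exists_lift hφ hK cs' r (algebraMap K (AlgebraicClosure K)) hq.one_lt hroot hΦf g
  refine ⟨τ, fun x => ?_⟩
  rw [← cp_st]
  apply Polynomial.map_injective _ (algebraMap K (AlgebraicClosure K)).injective
  have h1 : ∀ z : ↥(twistedD4 K q), (cp z).map (algebraMap K (AlgebraicClosure K)) =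
      ((((em q (algebraMap K (AlgebraicClosure K)) z : ↥(chevD4.group (AlgebraicClosure K))) :
        GL chevD4.Idx (AlgebraicClosure K)) : Matrix chevD4.Idx chevD4.Idx (AlgebraicClosure K))).charpoly := by
    intro z
    show ((((z : GL chevD4.Idx K) : Matrix chevD4.Idx chevD4.Idx K).charpoly).map _) = _
    rw [← Matrix.charpoly_map]
    rfl
  rw [h1, h1, hxy]
  have h2 := Matrix.charpoly_units_conj (y : GL chevD4.Idx (AlgebraicClosure K))
    (((em q (algebraMap K (AlgebraicClosure K)) (st q τ x) : ↥(chevD4.group (AlgebraicClosure K))) :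
        GL chevD4.Idx (AlgebraicClosure K)) : Matrix chevD4.Idx chevD4.Idx (AlgebraicClosure K))
  rw [← Matrix.coe_units_inv] at h2
  exact h2

end

/-- **`OutD` for `³D₄(q)`.** -/
theorem outD_td4 {K : Type} [Field K] [Fintype K] {p r f : ℕ} (hr : r.Prime) (hf : 0 < f)
    (hK : Fintype.card K = (r ^ f) ^ 3) (hp : p.Prime) (hp5 : 5 ≤ p) : OutD p r f (twistedD4 K (r ^ f)) := by
  have : Fact r.Prime := ⟨hr⟩
  have hc : CharP K r := charP_of_card_eq_prime_pow (f := f * 3) (by rw [hK, ← pow_mul])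
  have hq : IsPrimePow (r ^ f) := hr.isPrimePow.pow hf.ne'
  have hp3 : ¬ p ∣ 3 := fun h => by
    have := Nat.le_of_dvd (by norm_num) h
    omega
  refine ⟨?_, ?_, ?_⟩
  · rw [S2129.result r f (by rw [hK, ← pow_mul, mul_comm]) hf, Nat.factorization_mul (by norm_num) hf.ne',
      Finsupp.add_apply, Nat.factorization_eq_zero_of_not_dvd hp3, zero_add]
  · intro s hs x
    have h1 : D4Fixed.sig s (x : GL chevD4.Idx K) = x := D4Fixed.twisted_le_fix hK hs x.2
    have h2 : ((D4Fixed.sig s (x : GL chevD4.Idx K) : GL chevD4.Idx K) : Matrix chevD4.Idx chevD4.Idx K).charpoly =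
        (cp x).map s := by
      show _ = (((x : GL chevD4.Idx K) : Matrix chevD4.Idx chevD4.Idx K).charpoly).map s
      rw [← Matrix.charpoly_map]
      have h3 := Matrix.charpoly_units_conj (symmD4a.P K)
        (((x : GL chevD4.Idx K) : Matrix chevD4.Idx chevD4.Idx K).map s)
      rw [← Matrix.coe_units_inv] at h3
      exact h3
    rw [← h2, h1]
    rfl
  · intro s hs
    obtain ⟨τ, hτ⟩ : ∃ τ : K ≃+* K, (τ : K →+* K) = s :=
      ⟨RingEquiv.ofBijective s ((Finite.injective_iff_bijective).1 s.injective), by ext a; rfl⟩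
    have hτs : ∀ a, τ a = a ^ r := fun a => by rw [← hs, ← hτ]; rfl
    refine ⟨st (r ^ f) τ, fun x => by rw [cp_st, hτ], ⟨3, hp3, ?_⟩, ?_⟩
    · have h1 : τ ^ (3 * f) = 1 := by
        have h2 : ∀ (n : ℕ) (a : K), (τ ^ n) a = a ^ r ^ n := by
          intro n
          induction n with
          | zero => intro a; rw [pow_zero, pow_zero, pow_one]; rfl
          | succ n ih => intro a; rw [pow_succ, RingAut.mul_apply, ih, hτs, ← pow_mul, ← pow_succ']
        ext a
        rw [h2, mul_comm, pow_mul, ← hK, FiniteField.pow_card]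
        rfl
      rw [st_pow τ h1]
      exact one_mem _
    · intro g x
      obtain ⟨τ', hτ'⟩ := exists_cp_map hq hK g
      rw [hτ', cp_st, cp_st, Polynomial.map_map]
      have h1 : ((τ' : K →+* K)).comp (τ : K →+* K) = ((τ : K →+* K)).comp (τ' : K →+* K) := by
        ext a
        show τ' (τ a) = τ (τ' a)
        rw [hτs, hτs, map_pow]
      rw [h1, ← Polynomial.map_map, ← hτ', MulAut.apply_inv_self]

end Cfsg.Agent.H566.HT
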