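import Cfsg.Agent.H129.TorAct
import Cfsg.Agent.H129.TriD4
import Cfsg.Agent.H378.OmD4Tor

/-!
# S4933, part (O), `³D₄(q)`: toral elements with given eigenvalues (helper566)

* `exists_elt` : `θ = w · tri`, `lam` a functional with `lam (θ x) ≡ q lam x` modulo `N`, `ζ ^ N = 1`: an element of
  `³D₄(q)` with eigenvalues `1` (four times), `ζ ^ lam β` (`β` a root).
-/

set_option autoImplicit false
set_option linter.unusedSectionVars false

namespace Cfsg.Agent.H566.HT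

open CoxeterSystem Cfsg Cfsg.Lie Cfsg.Lie.ChevalleyDatum
open Cfsg.Agent.ChevalleyStructure Cfsg.Agent.ChevalleyStructure.Elts Cfsg.Agent.ChevalleyStructure.CoxeterGeom
  Cfsg.Agent.ChevalleyStructure.CoxeterGeomTypes Cfsg.Agent.ChevalleyStructure.NPerm
open Cfsg.Agent.Tits.Roots Cfsg.Agent.Tits.Core Cfsg.Agent.Nodes Cfsg.Agent.Nodes.Reps Cfsg.Agent.Nodes.BNOf
  Cfsg.Agent.Nodes.RGDChev Cfsg.Agent.Nodes.Bruhat Cfsg.Agent.Nodes.SubComb Cfsg.Agent.Nodes.Coroot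
open Cfsg.Agent.KFacts.RgdField Cfsg.Agent.KFacts.RgdChevCoord Cfsg.Agent.BpExc.TorCent Cfsg.Agent.BpExc.TorChev
open Cfsg.Agent.GpExc.Field Cfsg.Agent.BpExc.Tow Cfsg.Agent.BpExc.TowChev Cfsg.Agent.BpExc.Fr
  Cfsg.Agent.BpExc.LangFr Cfsg.Agent.LangThm Cfsg.Agent.BpExc Cfsg.Agent.H129.TorusChar Cfsg.Agent.H129.TorAct
  Cfsg.Agent.H129.TriD4 Cfsg.Agent.H129.TorusMain
open Polynomial

universe u v

/-- the matrix of a torus element -/
theorem diag_of_TT {D : ChevalleyDatum} {l : ℕ} {M : CoxeterMatrix (Fin l)} (hp : IsType D l M) {k : Type u} [Field k]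
    {t : ↥(D.group k)} (ht : t ∈ TT D k) :
    (((t : ↥(D.group k)) : GL D.Idx k) : Matrix D.Idx D.Idx k) =
      Matrix.diagonal (Sum.elim (fun _ => (1 : k)) (fun s : Fin D.nroots => cX hp t (vec D l s))) := by
  have ht' := ht
  rw [Subgroup.mem_subgroupOf] at ht'
  obtain ⟨c, hc, e, hact⟩ := H129.Tor.exists_c hp ht'
  rw [e]
  congr 1
  congr 1
  funext s
  rw [cX_vec hp ht s.2]
  symm
  apply ch_eq hp s.2 ht
  apply Subtype.ext
  rw [Subgroup.coe_mul, Subgroup.coe_mul, Subgroup.coe_inv, coe_xc hp s.2, coe_xc hp s.2, hact s s.2, mul_one]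

section

variable {k : Type u} [Field k] [IsAlgClosed k] {r e : ℕ} [Fact r.Prime] [CharP k r] {F : Type u} [Field F] [Fintype F]

theorem exists_elt (hk : LocFin k) (f : F →+* k) {q : ℕ} (he : 0 < e) (hqe : q = r ^ e) (hq : IsPrimePow q)
    (hF : Fintype.card F = q ^ 3) {W : Type v} [Group W] [Finite W] (cs : CoxeterSystem coxeterD4 W) (w : W)
    (lam : (Fin 4 → ℤ) →+ ℤ) {N : ℕ} (hN : N ≠ 0) {ζ : k} (hζ : ζ ^ N = 1)
    (h : ∀ x, (N : ℤ) ∣ lam (rep cs RGDTwD4.hp.isCartan w (tri x)) - q * lam x) :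
    ∃ y ∈ twistedD4 F q, ((y : Matrix chevD4.Idx chevD4.Idx F).map f).charpoly =
      ∏ i, (X - C ((Sum.elim (fun _ => (1 : k)) (fun s : Fin chevD4.nroots => ζ ^ lam (vec chevD4 4 s)) :
        chevD4.Idx → k) i)) := by
  have H := tow (k := k) RGDTwD4.hp cs hk r
  have hNs : NSys coxeterD4 (TT chevD4 k) (nc RGDTwD4.hp k) := by
    have h1 := H.nsys
    rwa [TL_eq RGDTwD4.hp hk] at h1
  have hζ0 : ζ ≠ 0 := by
    rintro rfl
    rw [zero_pow hN] at hζ
    exact zero_ne_one hζ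
  obtain ⟨n, hn⟩ := exists_rp cs hNs w
  obtain ⟨z, hz⟩ := lang_all RGDTwD4.hp cs he (isFrob_tau (k := k) (p := r) (e := e)) (fr_tau cs) 1 n
  rw [map_one, one_mul] at hz
  have hφ : IsMC (fun x => ζ ^ lam x) :=
    ⟨by show ζ ^ lam 0 = 1; rw [map_zero, zpow_zero], fun x y => by
      show ζ ^ lam (x + y) = _
      rw [map_add, zpow_add₀ hζ0]⟩
  obtain ⟨t, ht, h2⟩ := exists_cX RGDTwD4.hp invC_D4 (by norm_num) hφ
    (fun i => IsAlgClosed.exists_pow_nat_eq _ (by norm_num))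
  have hm := tau_mem RGDTwD4.hp cs (fr_tau (k := k) (p := r) (e := e) cs) hn ht
  have hfix : n * tau k r e t * n⁻¹ = t := by
    refine cX_inj RGDTwD4.hp hm ht fun i => ?_
    obtain ⟨y, hy⟩ := exists_theta (g := tri) RGDTwD4.hp cs w (sr i)
    rw [← hy, cX_tau RGDTwD4.hp cs hk isFrob_tau (fr_tau (k := k) (p := r) (e := e) cs) hn ht, h2, h2, theta_apply,
      ← hqe, ← zpow_natCast, ← zpow_mul]
    obtain ⟨c, hc⟩ := h y
    have e1 : lam (rep cs RGDTwD4.hp.isCartan w (tri y)) = lam y * q + N * c := by rw [← hc]; ring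
    rw [e1, zpow_add₀ hζ0, zpow_mul ζ (N : ℤ) c, zpow_natCast, hζ, one_zpow, mul_one]
  have hσ : tau k r e (z * t * z⁻¹) = z * t * z⁻¹ := by
    rw [map_mul, map_mul, map_inv]
    have e1 : tau k r e z = z * n := by rw [hz]; group
    rw [e1]
    calc z * n * tau k r e t * (z * n)⁻¹ = z * (n * tau k r e t * n⁻¹) * z⁻¹ := by group
      _ = _ := by rw [hfix]
  obtain ⟨y, hy⟩ := tau_range f hqe hq hF hσ
  refine ⟨y.1, y.2, ?_⟩
  have e2 : (y.1 : Matrix chevD4.Idx chevD4.Idx F).map f =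
      ((z : GL chevD4.Idx k) : Matrix chevD4.Idx chevD4.Idx k) *
        (((t : ↥(chevD4.group k)) : GL chevD4.Idx k) : Matrix chevD4.Idx chevD4.Idx k) *
        (((z : GL chevD4.Idx k)⁻¹ : GL chevD4.Idx k) : Matrix chevD4.Idx chevD4.Idx k) := by
    have h3 := congrArg (fun g : ↥(chevD4.group k) => ((g : GL chevD4.Idx k) : Matrix chevD4.Idx chevD4.Idx k)) hy
    simp only [coe_embT, Subgroup.coe_mul, Subgroup.coe_inv, Units.val_mul] at h3
    exact h3
  rw [e2, Matrix.coe_units_inv, Matrix.charpoly_units_conj, diag_of_TT RGDTwD4.hp ht, Matrix.charpoly_diagonal]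
  refine Finset.prod_congr rfl fun i _ => ?_
  congr 2
  rcases i with i | i
  · rfl
  · exact h2 _

end

end Cfsg.Agent.H566.HT
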